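import Cfsg.Agent.H259.U6.Data

/-!
# `SU₆(2)` in codes (6): noncentral elements are commutators of generating pairs

Given the representatives `X i` of the classes (up to scalars and `GU₆(2)`, helper767): every element of `SU₆(2)`
which is neither central nor a transvection is a commutator of a generating pair.
-/

set_option autoImplicit false
set_option linter.unusedSectionVars false
set_option maxRecDepth 100000

namespace Cfsg.Agent.H259.U6

open Cfsg Cfsg.Agent.LieClassical.HermBasic Cfsg.Agent.ClassicalGeometry.UnitTransv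
  Cfsg.Agent.SporadicStructure.UnitTwo
open Cfsg.Agent.LieClassical.HermSiegel (mat mat_mul mat_injective)
open Cfsg.Agent.ClassicalGeometry.PSUAutCount (gm guConj gm_inv_mul gm_mul_inv mat_guConjFun herm_gm gm_inv_mulVec
  gm_mulVec_inv)
open scoped Matrix

section F

variable {F : Type*} [Field F] [Fintype F] (hF : Fintype.card F = 2 ^ 2) {ω : F} (hω : ω ^ 2 + ω + 1 = 0)

/-- a commutator of a generating pair -/
def GoodG (g : SU 6 F 2) : Prop := ∃ a b : SU 6 F 2, g = a * b * a⁻¹ * b⁻¹ ∧ Subgroup.closure {a, b} = ⊤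

/-- transport by an element of `GU` -/
theorem good_conj {a b g : SU 6 F 2} (c : GU 6 F 2) {M : Matrix (Fin 6) (Fin 6) F}
    (hab : Subgroup.closure {a, b} = ⊤) (hM : mat (a * b) = M * mat (b * a)) (hc : gm c * mat g = M * gm c) :
    GoodG g := by
  refine ⟨guConj c⁻¹ a, guConj c⁻¹ b, ?_, ?_⟩
  · have h1 : ∀ x : SU 6 F 2, mat (guConj c⁻¹ x) = gm c⁻¹ * mat x * gm c := by
      intro x
      have := mat_guConjFun c⁻¹ x
      rw [inv_inv] at this
      exact this
    have h2 : g * (guConj c⁻¹ b * guConj c⁻¹ a) = guConj c⁻¹ a * guConj c⁻¹ b := by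
      apply mat_injective
      rw [← map_mul, ← map_mul, mat_mul, h1, h1, hM]
      have h3 : mat g = gm c⁻¹ * (M * gm c) := by rw [← hc, ← Matrix.mul_assoc, gm_inv_mul, Matrix.one_mul]
      rw [h3]
      simp only [Matrix.mul_assoc]
      rw [← Matrix.mul_assoc (gm c) (gm c⁻¹), gm_mul_inv, Matrix.one_mul]
    rw [← h2]
    group
  · have h1 : ({guConj c⁻¹ a, guConj c⁻¹ b} : Set (SU 6 F 2)) = (guConj c⁻¹).toMonoidHom '' {a, b} := by
      rw [Set.image_insert_eq, Set.image_singleton]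
      rfl
    rw [h1, ← MonoidHom.map_closure, hab, ← MonoidHom.range_eq_map]
    exact MonoidHom.range_eq_top.2 (guConj c⁻¹).surjective

theorem X_zero : H767.U6.X ω 0 = 1 := by
  ext r c
  show H767.U6.d4 ω (H767.U6.cd 1180663682709764194305 r c) = (1 : Matrix (Fin 6) (Fin 6) F) r c
  fin_cases r <;> fin_cases c <;> rfl

theorem mx_one : ∀ x < 4096, mx (H767.U6.XP.getD 1 0) x = tv 13 x := by
  have h : allB 4096 (fun x => Nat.beq (mx (H767.U6.XP.getD 1 0) x) (tv 13 x)) = true := by decide +kernel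
  exact fun x hx => beq_eq (allB_spec h x hx)

include hF hω in
theorem X_one (x : Fin 6 → F) : H767.U6.X ω 1 *ᵥ x = x + hermForm 6 F 2 x (dec ω 13) • dec ω 13 := by
  obtain ⟨y, hy, rfl⟩ := exists_code hF hω x
  rw [H767.U6.X, ← dec_mx hF hω, mx_one y hy, dec_tv hF hω (by norm_num)]

theorem scalar_central {g : SU 6 F 2} {s : F} (h : mat g = s • (1 : Matrix (Fin 6) (Fin 6) F)) :
    g ∈ Subgroup.center (SU 6 F 2) := by
  rw [Subgroup.mem_center_iff]
  intro x
  apply mat_injective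
  rw [mat_mul, mat_mul, h, Matrix.mul_smul, Matrix.smul_mul, Matrix.mul_one, Matrix.one_mul]

include hF hω in
/-- elements with a representative -/
theorem good_or_T {g : SU 6 F 2} (hg : g ∉ Subgroup.center (SU 6 F 2))
    (h : ∃ i < 40, ∃ l : ℕ, (l = 1 ∨ l = 2 ∨ l = 3) ∧ ∃ c : GU 6 F 2,
      gm c * mat g = (H767.U6.d4 ω l • H767.U6.X ω i) * gm c) :
    GoodG g ∨ ∃ (v : Fin 6 → F) (hv : hermForm 6 F 2 v v = 0), v ≠ 0 ∧ g = T hF v hv := by
  obtain ⟨i, hi, l, hl, c, hc⟩ := h
  have hl0 : l ≠ 0 := by omega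
  have hl4 : l < 4 := by omega
  by_cases h0 : i = 0
  · subst h0
    refine absurd (scalar_central (s := H767.U6.d4 ω l) ?_) hg
    rw [X_zero, Matrix.smul_mul, Matrix.one_mul] at hc
    have h3 : mat g = gm c⁻¹ * (H767.U6.d4 ω l • gm c) := by
      rw [← hc, ← Matrix.mul_assoc, gm_inv_mul, Matrix.one_mul]
    rw [h3, Matrix.mul_smul, gm_inv_mul]
  · by_cases h1 : i = 1 ∧ l = 1
    · obtain ⟨rfl, rfl⟩ := h1
      right
      have hd : hm 13 13 = 0 := rfl
      have hd' := (herm_eq_zero_iff hF hω 13 13).2 hd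
      have h1 : H767.U6.d4 ω 1 • H767.U6.X ω 1 = H767.U6.X ω 1 := one_smul F _
      rw [h1] at hc
      have hv : hermForm 6 F 2 (gm c⁻¹ *ᵥ dec ω 13) (gm c⁻¹ *ᵥ dec ω 13) = 0 := by rw [herm_gm, hd']
      refine ⟨gm c⁻¹ *ᵥ dec ω 13, hv, ?_, ?_⟩
      · intro h
        have h2 := gm_mulVec_inv c (dec ω 13)
        rw [h, Matrix.mulVec_zero] at h2
        have h3 := congrFun h2 0
        exact zero_ne_one h3
      · apply ext_act
        intro x
        have h2 : act g x = gm c⁻¹ *ᵥ (H767.U6.X ω 1 *ᵥ (gm c *ᵥ x)) := by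
          show mat g *ᵥ x = _
          rw [Matrix.mulVec_mulVec, Matrix.mulVec_mulVec, Matrix.mul_assoc, ← hc, ← Matrix.mul_assoc, gm_inv_mul,
            Matrix.one_mul]
        rw [h2, X_one hF hω, act_T, Matrix.mulVec_add, Matrix.mulVec_smul, gm_inv_mulVec,
          ← herm_gm c⁻¹ (gm c *ᵥ x), gm_inv_mulVec]
    · left
      have h2 : i ≠ 1 ∨ l ≠ 1 := by tauto
      obtain ⟨d, hd, rfl, rfl⟩ := cover_DD i hi h0 l hl4 hl0 h2
      obtain ⟨a, b, hab, hM⟩ := chk_spec hF hω d hl4 (chk_DD d hd)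
      exact good_conj c hab hM hc

end F

end Cfsg.Agent.H259.U6
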