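import Cfsg.Agent.H259.U6.Frame
import Cfsg.Agent.H767.U6.Cover

/-!
# `SU₆(2)` in codes (7): the theorem

Every noncentral element of `SU₆(2)` which is not a transvection is a commutator of a generating pair.
-/

set_option autoImplicit false
set_option linter.unusedSectionVars false

namespace Cfsg.Agent.H259.U6

open Cfsg Cfsg.Agent.LieClassical.HermBasic Cfsg.Agent.ClassicalGeometry.UnitTransv
  Cfsg.Agent.SporadicStructure.UnitTwo

section F

variable {F : Type*} [Field F] [Fintype F] (hF : Fintype.card F = 2 ^ 2)

/-- a noncentral element of `SU₆(2)` is a commutator of a generating pair or a transvection -/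
theorem ore {g : SU 6 F 2} (hg : g ∉ Subgroup.center (SU 6 F 2)) :
    GoodG g ∨ ∃ (v : Fin 6 → F) (hv : hermForm 6 F 2 v v = 0), v ≠ 0 ∧ g = T hF v hv := by
  obtain ⟨ω, hω⟩ := exists_omega hF
  exact good_or_T hF hω hg (H767.U6.cover hF hω g)

end F

end Cfsg.Agent.H259.U6
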