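import Cfsg.Agent.H259.U6.Code

/-!
# `SU₆(2)` in codes (2): elements as maps of codes
-/

set_option autoImplicit false
set_option linter.unusedSectionVars false
set_option maxRecDepth 100000

namespace Cfsg.Agent.H259.U6

open Cfsg Cfsg.Agent.LieClassical.HermBasic Cfsg.Agent.ClassicalGeometry.UnitTransv
  Cfsg.Agent.SporadicStructure.UnitTwo
open scoped Matrix

/-- `f n`, with `n` evaluated first -/
def frc (n : ℕ) (f : ℕ → Bool) : Bool := Nat.rec (f 0) (fun m _ => f (Nat.succ m)) n

theorem frc_eq (n : ℕ) (f : ℕ → Bool) : frc n f = f n := by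
  cases n <;> rfl

/-- `f n`, with `n` evaluated first -/
def frcN (n : ℕ) (f : ℕ → ℕ) : ℕ := Nat.rec (f 0) (fun m _ => f (Nat.succ m)) n

theorem frcN_eq (n : ℕ) (f : ℕ → ℕ) : frcN n f = f n := by
  cases n <;> rfl

/-- the additive map with the given images of the powers of two -/
def ap (A : List ℕ) : ℕ → ℕ :=
  List.rec (fun _ => 0) (fun c _ ih x => Nat.xor (Nat.mul (Nat.land x 1) c) (frcN (Nat.shiftRight x 1) ih)) A

theorem ap_nil (x : ℕ) : ap [] x = 0 := rfl

theorem ap_cons (c : ℕ) (A : List ℕ) (x : ℕ) : ap (c :: A) x = ((x % 2) * c) ^^^ ap A (x / 2) := by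
  show Nat.xor (Nat.mul (Nat.land x 1) c) (frcN (Nat.shiftRight x 1) (ap A)) = _
  rw [frcN_eq]
  have h1 : Nat.land x 1 = x % 2 := Nat.and_two_pow_sub_one_eq_mod x 1
  have h2 : Nat.shiftRight x 1 = x / 2 := Nat.shiftRight_eq_div_pow x 1
  rw [h1, h2]
  rfl

theorem ap_lt {n : ℕ} : ∀ {A : List ℕ}, (∀ c ∈ A, c < 2 ^ n) → ∀ x, ap A x < 2 ^ n := by
  intro A
  induction A with
  | nil => exact fun _ x => by rw [ap_nil]; positivity
  | cons c A ih =>
    intro h x
    rw [ap_cons]
    refine Nat.xor_lt_two_pow ?_ (ih (fun d hd => h d (List.mem_cons_of_mem _ hd)) _)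
    have hc := h c List.mem_cons_self
    rcases Nat.mod_two_eq_zero_or_one x with h0 | h0
    · rw [h0, zero_mul]; positivity
    · rw [h0, one_mul]; exact hc

/-- the powers of two -/
def E12 : List ℕ := [1, 2, 4, 8, 16, 32, 64, 128, 256, 512, 1024, 2048]

theorem E12_get : ∀ i (h : i < E12.length), E12[i] = 2 ^ i := by
  intro i h
  have h' : i < 12 := h
  interval_cases i <;> rfl

theorem split_bit (x j : ℕ) : x * 2 ^ j = ((x % 2) * 2 ^ j) ^^^ ((x / 2) * 2 ^ (j + 1)) := by
  apply Nat.eq_of_testBit_eq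
  intro k
  rw [Nat.testBit_xor, Nat.testBit_mul_two_pow, Nat.testBit_mul_two_pow, Nat.testBit_mul_two_pow,
    Nat.testBit_div_two, show x % 2 = x % 2 ^ 1 from rfl, Nat.testBit_mod_two_pow]
  by_cases h : j + 1 ≤ k
  · obtain ⟨m, rfl⟩ := Nat.exists_eq_add_of_le h
    have h1 : j + 1 + m - j = m + 1 := by omega
    have h2 : j + 1 + m - (j + 1) = m := by omega
    rw [h1, h2]
    simp [show j ≤ j + 1 + m by omega]
  · by_cases h0 : j = k
    · subst h0
      simp
    · simp [h, show ¬ j ≤ k by omega]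

section F

variable {F : Type*} [Field F] [Fintype F] (hF : Fintype.card F = 2 ^ 2) {ω : F} (hω : ω ^ 2 + ω + 1 = 0)

include hF in
/-- an additive map which is right on the powers of two -/
theorem dec_ap {φ : (Fin 6 → F) → (Fin 6 → F)} (hφ : ∀ x y, φ (x + y) = φ x + φ y) :
    ∀ (A : List ℕ) (j : ℕ), (∀ i (hi : i < A.length), φ (dec ω (2 ^ (j + i))) = dec ω A[i]) →
      ∀ x < 2 ^ A.length, φ (dec ω (x * 2 ^ j)) = dec ω (ap A x) := by
  have hφ0 : φ 0 = 0 := by
    have := hφ 0 0
    rwa [add_zero, left_eq_add] at this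
  intro A
  induction A with
  | nil =>
    intro j _ x hx
    rw [List.length_nil, pow_zero, Nat.lt_one_iff] at hx
    rw [hx, zero_mul, ap_nil, dec_zero, hφ0]
  | cons c A ih =>
    intro j h x hx
    rw [ap_cons, dec_xor hF, split_bit, dec_xor hF, hφ, ih (j + 1) ?_ (x / 2) ?_]
    · congr 1
      rcases Nat.mod_two_eq_zero_or_one x with h0 | h0
      · rw [h0, zero_mul, zero_mul, dec_zero, hφ0]
      · rw [h0, one_mul, one_mul]
        exact h 0 (Nat.succ_pos _)
    · intro i hi
      have := h (i + 1) (Nat.succ_lt_succ hi)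
      rw [add_assoc, add_comm 1 i]
      exact this
    · rw [List.length_cons, pow_succ] at hx
      omega

/-- the map `φ` is `f` in codes -/
def Rp (ω : F) (φ : (Fin 6 → F) → (Fin 6 → F)) (f : ℕ → ℕ) : Prop :=
  ∀ x < 4096, f x < 4096 ∧ φ (dec ω x) = dec ω (f x)

theorem rp_comp {φ ψ : (Fin 6 → F) → (Fin 6 → F)} {f g : ℕ → ℕ} (h1 : Rp ω φ f) (h2 : Rp ω ψ g) :
    Rp ω (fun x => φ (ψ x)) (fun x => f (g x)) := by
  intro x hx
  obtain ⟨h3, h4⟩ := h2 x hx
  obtain ⟨h5, h6⟩ := h1 _ h3
  exact ⟨h5, by show φ (ψ (dec ω x)) = dec ω (f (g x)); rw [h4, h6]⟩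

theorem rp_mul {g h : SU 6 F 2} {f f' : ℕ → ℕ} (h1 : Rp ω (act g) f) (h2 : Rp ω (act h) f') :
    Rp ω (act (g * h)) (fun x => f (f' x)) := by
  intro x hx
  obtain ⟨h3, h4⟩ := h2 x hx
  obtain ⟨h5, h6⟩ := h1 _ h3
  exact ⟨h5, by rw [act_mul, h4, h6]⟩

theorem rp_one : Rp ω (act (1 : SU 6 F 2)) (fun x => x) := fun x hx => ⟨hx, by rw [act_one]⟩

include hF hω in
theorem rp_T {v : ℕ} (hv : v < 4096) (h0 : hermForm 6 F 2 (dec ω v) (dec ω v) = 0) :
    Rp ω (act (T hF (dec ω v) h0)) (tv v) :=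
  fun x hx => ⟨tv_lt hv hx, by rw [act_T, dec_tv hF hω hv]⟩

/-- `Nat.beq` for lists -/
def lbeq : List ℕ → List ℕ → Bool
  | [], [] => true
  | a :: as, b :: bs => bif Nat.beq a b then lbeq as bs else false
  | _, _ => false

theorem lbeq_eq : ∀ {A B : List ℕ}, lbeq A B = true → A = B := by
  intro A
  induction A with
  | nil => intro B h; cases B with
    | nil => rfl
    | cons b B => cases h
  | cons a A ih => intro B h; cases B with
    | nil => cases h
    | cons b B =>
      have h' : (bif Nat.beq a b then lbeq A B else false) = true := h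
      cases hab : Nat.beq a b with
      | false => rw [hab] at h'; cases h'
      | true => rw [hab] at h'; rw [beq_eq hab, ih h']

/-- the entries are codes -/
def okL (A : List ℕ) : Bool := A.all fun c => Nat.ble c 4095

theorem okL_spec {A : List ℕ} (h : okL A = true) : ∀ c ∈ A, c < 2 ^ 12 := by
  intro c hc
  have := Nat.le_of_ble_eq_true (List.all_eq_true.1 h c hc)
  omega

include hF in
/-- the list of the images of the powers of two -/
theorem rp_ap {φ : (Fin 6 → F) → (Fin 6 → F)} (hφ : ∀ x y, φ (x + y) = φ x + φ y) {f : ℕ → ℕ} (h : Rp ω φ f)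
    {A : List ℕ} (hA : lbeq (E12.map f) A = true) (hok : okL A = true) : Rp ω φ (ap A) := by
  have hA' := lbeq_eq hA
  have hlen : A.length = 12 := by rw [← hA']; rfl
  intro x hx
  refine ⟨ap_lt (okL_spec hok) x, ?_⟩
  have := dec_ap hF (ω := ω) hφ A 0 ?_ x (by rw [hlen]; exact hx)
  · rwa [pow_zero, mul_one] at this
  · intro i hi
    have hi' : i < 12 := by rwa [hlen] at hi
    have h1 : A[i] = f (2 ^ i) := by
      simp only [← hA', List.getElem_map]
      exact congrArg f (E12_get i hi')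
    rw [zero_add, h1]
    have : (2 : ℕ) ^ i < 4096 := by interval_cases i <;> norm_num
    exact (h _ this).2

include hF hω in
/-- elements which agree on the basis -/
theorem ext6 {g h : SU 6 F 2} {f f' : ℕ → ℕ} (h1 : Rp ω (act g) f) (h2 : Rp ω (act h) f')
    (H : ∀ j < 6, f (4 ^ j) = f' (4 ^ j)) : g = h := by
  have h3 : ∀ j < 6, act g (dec ω (4 ^ j)) = act h (dec ω (4 ^ j)) := by
    intro j hj
    have h4 : (4 : ℕ) ^ j < 4096 := by interval_cases j <;> norm_num
    rw [(h1 _ h4).2, (h2 _ h4).2, H j hj]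
  have h5 : ∀ j : Fin 6, dec ω (4 ^ (j : ℕ)) = Pi.single j 1 := by
    intro j
    funext i
    unfold dec
    rw [dig_eq]
    fin_cases j <;> fin_cases i <;> rfl
  apply ext_act
  intro x
  have h6 : x = ∑ j : Fin 6, x j • (Pi.single j 1 : Fin 6 → F) := by
    funext i
    rw [Finset.sum_apply, Finset.sum_eq_single i]
    · rw [Pi.smul_apply, Pi.single_eq_same, smul_eq_mul, mul_one]
    · intro j _ hj
      rw [Pi.smul_apply, Pi.single_eq_of_ne (Ne.symm hj), smul_zero]
    · exact fun h => absurd (Finset.mem_univ i) h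
  rw [h6]
  simp only [Fin.sum_univ_six, act_add, act_smul]
  simp only [← h5]
  rw [h3 _ (Fin.is_lt 0), h3 _ (Fin.is_lt 1), h3 _ (Fin.is_lt 2), h3 _ (Fin.is_lt 3), h3 _ (Fin.is_lt 4),
    h3 _ (Fin.is_lt 5)]

/-! ### words of transvections -/

/-- the product of transvections -/
def tvs (L : List ℕ) : ℕ → ℕ := List.rec (fun x => x) (fun c _ ih x => frcN (ih x) (tv c)) L

theorem tvs_cons (c : ℕ) (L : List ℕ) (x : ℕ) : tvs (c :: L) x = tv c (tvs L x) := frcN_eq _ _

/-- the codes are isotropic vectors -/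
def okT (L : List ℕ) : Bool := L.all fun c => bif Nat.ble c 4095 then Nat.beq (hm c c) 0 else false

theorem okT_spec {L : List ℕ} (h : okT L = true) : ∀ c ∈ L, c < 4096 ∧ hm c c = 0 := by
  intro c hc
  have h1 := List.all_eq_true.1 h c hc
  cases h2 : Nat.ble c 4095 with
  | false => rw [h2] at h1; cases h1
  | true =>
    rw [h2] at h1
    have := Nat.le_of_ble_eq_true h2
    exact ⟨by omega, beq_eq h1⟩

include hF hω in
theorem exists_tvs : ∀ L : List ℕ, (∀ c ∈ L, c < 4096 ∧ hm c c = 0) → ∃ g : SU 6 F 2, Rp ω (act g) (tvs L) := by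
  intro L
  induction L with
  | nil => exact fun _ => ⟨1, rp_one⟩
  | cons c L ih =>
    intro h
    obtain ⟨g, hg⟩ := ih fun d hd => h d (List.mem_cons_of_mem _ hd)
    obtain ⟨h1, h2⟩ := h c List.mem_cons_self
    refine ⟨T hF (dec ω c) ((herm_eq_zero_iff hF hω c c).2 h2) * g, ?_⟩
    have h3 : tvs (c :: L) = fun x => tv c (tvs L x) := funext fun x => tvs_cons c L x
    rw [h3]
    exact rp_mul (rp_T hF hω h1 _) hg

/-! ### words in two elements -/

/-- the value of a word -/
def wd (A B : List ℕ) (w : List Bool) : ℕ → ℕ :=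
  List.rec (fun x => x) (fun c _ ih x => frcN (ih x) (ap (bif c then A else B))) w

theorem wd_cons (A B : List ℕ) (c : Bool) (w : List Bool) (x : ℕ) :
    wd A B (c :: w) x = ap (bif c then A else B) (wd A B w x) := frcN_eq _ _

/-- the word in the group -/
def wg (a b : SU 6 F 2) : List Bool → SU 6 F 2
  | [] => 1
  | c :: w => (bif c then a else b) * wg a b w

theorem rp_wg {a b : SU 6 F 2} {A B : List ℕ} (ha : Rp ω (act a) (ap A)) (hb : Rp ω (act b) (ap B)) :
    ∀ w : List Bool, Rp ω (act (wg a b w)) (wd A B w) := by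
  intro w
  induction w with
  | nil => exact rp_one
  | cons c w ih =>
    have h3 : wd A B (c :: w) = fun x => ap (bif c then A else B) (wd A B w x) := funext fun x => wd_cons A B c w x
    rw [h3]
    cases c with
    | false => exact rp_mul hb ih
    | true => exact rp_mul ha ih

theorem wg_mem (a b : SU 6 F 2) : ∀ w : List Bool, wg a b w ∈ Subgroup.closure {a, b} := by
  have ha : a ∈ Subgroup.closure {a, b} := Subgroup.subset_closure (Set.mem_insert _ _)
  have hb : b ∈ Subgroup.closure {a, b} := Subgroup.subset_closure (Set.mem_insert_of_mem _ rfl)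
  intro w
  induction w with
  | nil => exact one_mem _
  | cons c w ih =>
    cases c with
    | false => exact mul_mem hb ih
    | true => exact mul_mem ha ih

/-- iterate -/
def itn (f : ℕ → ℕ) (k x : ℕ) : ℕ := Nat.rec x (fun _ ih => frcN ih f) k

theorem rp_pow {g : SU 6 F 2} {f : ℕ → ℕ} (h : Rp ω (act g) f) : ∀ k, Rp ω (act (g ^ k)) (itn f k) := by
  intro k
  induction k with
  | zero => rw [pow_zero]; exact rp_one
  | succ k ih =>
    have h3 : itn f (k + 1) = fun x => f (itn f k x) := funext fun x => frcN_eq _ _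
    rw [pow_succ', h3]
    exact rp_mul h ih

end F

end Cfsg.Agent.H259.U6
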