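import Cfsg.Agent.H259.U6.Rep

/-!
# `SU₆(2)` in codes (3): six transvections generate
-/

set_option autoImplicit false
set_option linter.unusedSectionVars false
set_option maxRecDepth 100000

namespace Cfsg.Agent.H259.U6

open Cfsg Cfsg.Agent.LieClassical.HermBasic Cfsg.Agent.ClassicalGeometry.UnitTransv
  Cfsg.Agent.SporadicStructure.UnitTwo
open scoped Matrix

/-- bit -/
def tb (K x : ℕ) : Bool := Nat.beq (Nat.land (Nat.shiftRight K x) 1) 1

theorem tb_eq (K x : ℕ) : tb K x = true ↔ K.testBit x = true := by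
  have h1 : Nat.land (Nat.shiftRight K x) 1 = K / 2 ^ x % 2 := by
    have h2 : Nat.shiftRight K x = K / 2 ^ x := Nat.shiftRight_eq_div_pow K x
    rw [h2]
    exact Nat.and_two_pow_sub_one_eq_mod _ 1
  unfold tb
  rw [h1, Nat.testBit_eq_decide_div_mod_eq, decide_eq_true_iff]
  exact ⟨fun h => beq_eq h, fun h => by rw [h]; rfl⟩

/-- the six transvections -/
def G6 : List ℕ := [5, 20, 80, 320, 1280, 109]

/-- set the bits of a line -/
def setL (K y : ℕ) : ℕ :=
  Nat.lor K (Nat.lor (Nat.shiftLeft 1 y) (Nat.lor (Nat.shiftLeft 1 (mw y)) (Nat.shiftLeft 1 (Nat.xor y (mw y)))))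

theorem tb_setL {K y x : ℕ} (h : tb (setL K y) x = true) : tb K x = true ∨ x = y ∨ x = mw y ∨ x = y ^^^ mw y := by
  have h1 : ∀ z, Nat.testBit (Nat.shiftLeft 1 z) x = decide (z = x) := by
    intro z
    have : Nat.shiftLeft 1 z = 2 ^ z := Nat.one_shiftLeft z
    rw [this, Nat.testBit_two_pow]
  rw [tb_eq] at h ⊢
  have h2 : (K ||| (Nat.shiftLeft 1 y ||| (Nat.shiftLeft 1 (mw y) ||| Nat.shiftLeft 1 (y ^^^ mw y)))).testBit x = true := h
  rw [Nat.testBit_or, Nat.testBit_or, Nat.testBit_or, h1, h1, h1, Bool.or_eq_true, Bool.or_eq_true, Bool.or_eq_true,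
    decide_eq_true_iff, decide_eq_true_iff, decide_eq_true_iff] at h2
  rcases h2 with h2 | h2 | h2 | h2
  · exact Or.inl h2
  · exact Or.inr (Or.inl h2.symm)
  · exact Or.inr (Or.inr (Or.inl h2.symm))
  · exact Or.inr (Or.inr (Or.inr h2.symm))

/-- the known lines at the start -/
def K0 : ℕ := List.rec 1 (fun p _ ih => setL ih p) G6

/-- the orbit: entries `8 x + j`, a known code `x` and the number `j` of a transvection -/
def orb : List ℕ → ℕ → (ℕ → Bool) → Bool
  | [], K, k => k K
  | t :: L, K, k => frc (Nat.shiftRight t 3) fun x => bif tb K x then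
      frc (tv (G6.getD (Nat.land t 7) 0) x) fun y => frc (setL K y) fun K' => orb L K' k else false

/-- the tree -/
def tree : List ℕ := [
  41, 45, 162, 165, 643, 645, 2564, 2565, 138, 141, 825, 826, 827, 547, 549, 968, 970, 971, 2180, 2181, 985, 987,
  8709, 2410, 523, 755, 731, 1011, 2362, 2364, 2084, 2085, 979, 946, 947, 883, 2506, 2508, 8325, 3672, 3673, 891,
  2524, 8554, 3177, 2060, 2061, 2290, 2292, 2266, 2268, 2269, 2548, 2549, 3129, 3132, 3133, 8229, 3472, 3473,
  3474, 3475, 2514, 2516, 859, 2482, 2484, 2485, 2420, 2421, 3660, 3661, 9816, 9817, 9819, 3697, 3864, 3866,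
  2426, 2428, 2429, 9321, 9323, 3464, 3469, 8205, 2912, 2913, 2914, 2673, 2676, 2677, 2652, 2653, 8413, 3586,
  8693, 2713, 3228, 3229, 9275, 9277, 2785, 9616, 9617, 9618, 9619, 3521, 3522, 3523, 3184, 3852, 3668, 3669,
  2396, 2397, 3633, 3636, 3637, 8629, 3074, 8565, 3264, 3266, 9803, 9805, 3360, 9841, 9843, 10008, 10010, 10011,
  3989, 3938, 3941, 3196, 8573, 4000, 9608, 9611, 9613, 3493, 3808, 9056, 9057, 9058, 9059, 3010, 2964, 2965,
  8819, 8821, 8795, 8797, 2353, 2354, 2355, 9730, 9731, 2433, 2435, 8857, 8859, 2616, 2618, 9371, 9373, 2345,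
  2346, 2347, 12349, 8929, 8931, 2976, 2978, 9665, 9666, 9667, 9328, 9331, 10003, 12690, 12692, 3424, 3876, 3165,
  9811, 9813, 3040, 8541, 2608, 2609, 2610, 3732, 3733, 9779, 9781, 2281, 2283, 9218, 9219, 2305, 2307, 9408,
  9410, 9411, 3218, 14413, 9504, 9507, 3337, 10131, 10133, 14453, 10082, 10083, 10085, 9627, 14618, 14621, 2379,
  3557, 2490, 2491, 9339, 10144, 10147, 3977, 9635, 9637, 12682, 12685, 9952, 9955, 2067, 8987, 9154, 9155, 9443,
  10594, 3781, 9107, 9109, 2298, 2299, 10357, 10179, 8497, 8498, 2258, 2259, 818, 8577, 2147, 2149, 901, 8760,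
  8762, 8763, 10394, 2235, 12442, 8489, 8490, 2251, 3113, 3115, 810, 13138, 13139, 9120, 9122, 9123, 10466, 3747,
  9568, 9571, 10051, 12738, 12740, 12741, 9307, 9309, 12405, 14610, 14613, 13844, 13845, 14421, 9184, 9187, 8752,
  8753, 8754, 8755, 2704, 9875, 9877, 2850, 8425, 2474, 2475, 8449, 2115, 9362, 9363, 9027, 12482, 15866, 15867,
  9481, 9483, 12578, 14738, 16042, 9699, 9701, 14690, 8634, 12698, 12701, 15389, 15530, 3723, 12413, 10121,
  10123, 14754, 12706, 13837, 14162, 14163, 9883, 14562, 530, 10522, 10525, 9923, 9925, 10690, 10693, 12514,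
  12517, 11361, 11365, 2075, 10642, 8442, 11946, 11947, 14786, 8402, 9267, 8293, 610, 8811, 10301, 10781, 12829,
  9257, 9259, 3211, 3706, 3708, 13521, 9099, 9891, 10658, 10849, 3396, 9499, 12642, 14658, 14661, 13889, 13892,
  14629, 13994, 16328, 16329, 15373, 13689, 15160, 15161, 15162, 15163, 9115, 10722, 8779, 8848, 8851, 14482,
  14485, 8994, 8995, 3235, 8618, 3627, 938, 578, 8979, 12434, 12437, 10562, 10565, 12865, 12869, 16249, 9291,
  12554, 13345, 15893, 15273, 12770, 12773, 9867, 15457, 15461, 9787, 13040, 13041, 16240, 16241, 16242, 15145,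
  15147, 3348, 13768, 13769, 13770, 9835, 14730, 14733, 15905, 15909, 13857, 13861, 13240, 13241, 13242, 13243,
  13777, 14490, 14945, 145, 11293, 11434, 14530, 11841, 12897, 10936, 538, 11797, 8827, 15937, 8787, 8971, 229,
  11090, 12201, 14249, 14251, 9355, 12332, 12333, 3996, 3997, 2556, 10634, 10637, 14498, 14500, 14501, 11809,
  11813, 11141, 12570, 12573, 13409, 13413, 15425, 15429, 15600, 15601, 15602, 14084, 14085, 13225, 13227, 16305,
  16232, 16234, 15057, 15059, 13784, 13786, 15210, 15211, 15064, 15067, 10650, 10653, 11873, 11877, 10317, 8899,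
  10386, 10389, 14869, 15354, 15355, 9379, 10530, 4068, 9771, 3154, 3156, 3157, 853, 10514, 10517, 12821, 13306,
  11329, 11504, 11505, 11506, 14320, 16344, 16349, 12365, 13325, 13445, 15737, 15739, 13921, 13925, 14136, 14137,
  14138, 14139, 14474, 14476, 15035, 14397, 13017, 13232, 13234, 15048, 15051, 13745, 13746, 13672, 15885, 16210,
  15688, 13291, 13051, 13680, 14877, 15237, 12144, 12145, 12146, 11049, 14913, 12037, 11641, 11643, 10365, 10325,
  10506, 683, 11473, 12010, 15788, 12426, 12428, 14461, 14065, 14066, 10141, 11789, 12114, 14881, 14884, 14885,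
  15304, 15306, 11595, 11608, 11611, 13341, 13482, 12987, 15621, 15578, 15794, 15217, 15493, 12976, 12979, 13035,
  16112, 16114, 16186, 16189, 15152, 15155, 15597, 12141, 15091, 11994, 10993, 11770, 10434, 10773, 11258, 15561,
  15563, 16121, 12450, 11297, 14380, 2388, 9301, 2696, 12232, 13512, 13513, 14073, 11481, 11482, 13009, 14204,
  14213, 13265, 14185, 14186, 14187, 14042, 13753, 14860, 13112, 13114, 15027, 11978, 11981, 13552, 14133, 15288,
  15289, 15290, 15291, 15825, 15827, 11517, 16297, 13180, 11721, 11722, 11064, 11277, 2220, 12812, 15818, 8747,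
  11193, 14980, 13381, 15610, 15282, 13099, 15323, 15317, 11442, 15347, 12085, 12018, 10817, 11466, 11397, 8840,
  8843, 13545, 11213, 10784]

/-- the orbit consists of all isotropic vectors -/
def chk6 : Bool := orb tree K0 fun K => allB 4096 fun x => bif Nat.beq (hm x x) 0 then tb K x else true

theorem chk6_true : chk6 = true := by decide +kernel

section F

variable {F : Type*} [Field F] [Fintype F] (hF : Fintype.card F = 2 ^ 2) {ω : F} (hω : ω ^ 2 + ω + 1 = 0)

/-- the transvection of the code is in the subgroup -/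
def InH (ω : F) (H : Subgroup (SU 6 F 2)) (x : ℕ) : Prop :=
  x < 4096 ∧ hm x x = 0 ∧ ∀ h : hermForm 6 F 2 (dec ω x) (dec ω x) = 0, T hF (dec ω x) h ∈ H

variable {H : Subgroup (SU 6 F 2)}

include hω in
theorem InH.sm {x c : ℕ} (h : InH hF ω H x) (hc : c < 4) (h0 : c ≠ 0) : InH hF ω H (sm c x) := by
  obtain ⟨h1, h2, h3⟩ := h
  have h4 := dec_sm hF hω h1 hc
  have h5 : hermForm 6 F 2 (dec ω (U6.sm c x)) (dec ω (U6.sm c x)) = 0 := by
    rw [h4, herm_smul_left, herm_smul_right, (herm_eq_zero_iff hF hω x x).2 h2, mul_zero, mul_zero]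
  refine ⟨sm_lt x h1 c hc, (herm_eq_zero_iff hF hω _ _).1 h5, ?_⟩
  rw [h4]
  intro h
  rw [T_smul hF _ (d4_ne hω hc h0) _ ((herm_eq_zero_iff hF hω x x).2 h2)]
  exact h3 _

include hω in
theorem InH.tv {p x : ℕ} (hp : InH hF ω H p) (hx : InH hF ω H x) : InH hF ω H (tv p x) := by
  obtain ⟨h1, h2, h3⟩ := hp
  obtain ⟨h1', h2', h3'⟩ := hx
  have e := (herm_eq_zero_iff hF hω p p).2 h2
  have e' := (herm_eq_zero_iff hF hω x x).2 h2'
  have h4 := (rp_T hF hω h1 e x h1').2
  have h5 : hermForm 6 F 2 (dec ω (U6.tv p x)) (dec ω (U6.tv p x)) = 0 := by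
    rw [← h4, herm_act, e']
  refine ⟨tv_lt h1 h1', (herm_eq_zero_iff hF hω _ _).1 h5, ?_⟩
  rw [← h4]
  intro h
  rw [← conj_T hF _ _ e' h]
  exact mul_mem (mul_mem (h3 _) (h3' _)) (inv_mem (h3 _))

include hω in
theorem inH_setL {K y : ℕ} (hK : ∀ x, tb K x = true → InH hF ω H x) (hy : InH hF ω H y) :
    ∀ x, tb (setL K y) x = true → InH hF ω H x := by
  intro x hx
  rcases tb_setL hx with h | h | h | h
  · exact hK x h
  · rw [h]; exact hy
  · rw [h, ← sm_2]; exact hy.sm hF hω (by norm_num) (by norm_num)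
  · rw [h, ← sm_3]; exact hy.sm hF hω (by norm_num) (by norm_num)

include hω in
theorem orb_spec (hG : ∀ p ∈ G6, InH hF ω H p) (k : ℕ → Bool) : ∀ (L : List ℕ) (K : ℕ),
    (∀ x, tb K x = true → InH hF ω H x) → orb L K k = true →
      ∃ K', (∀ x, tb K' x = true → InH hF ω H x) ∧ k K' = true := by
  have h0 : InH hF ω H 0 := by
    refine ⟨by norm_num, rfl, ?_⟩
    rw [dec_zero]
    intro h
    rw [T_zero]
    exact one_mem _
  have hG' : ∀ j, InH hF ω H (G6.getD j 0) := by
    intro j
    rcases lt_or_ge j G6.length with h | h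
    · rw [List.getD_eq_getElem _ _ h]
      exact hG _ (List.getElem_mem h)
    · rw [List.getD_eq_default _ _ h]
      exact h0
  intro L
  induction L with
  | nil => exact fun K hK h => ⟨K, hK, h⟩
  | cons t L ih =>
    intro K hK h
    rw [orb, frc_eq] at h
    cases h1 : tb K (Nat.shiftRight t 3) with
    | false => rw [h1] at h; cases h
    | true =>
      rw [h1, cond_true, frc_eq, frc_eq] at h
      exact ih _ (inH_setL hF hω hK ((hG' _).tv hF hω (hK _ h1))) h

include hω in
/-- a subgroup with the six transvections is everything -/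
theorem six (hG : ∀ p ∈ G6, InH hF ω H p) : H = ⊤ := by
  have hK0 : ∀ x, tb K0 x = true → InH hF ω H x := by
    have h1 : ∀ x, tb 1 x = true → InH hF ω H x := by
      intro x hx
      have h2 : x = 0 := by
        by_contra h
        rw [tb_eq, Nat.testBit_eq_decide_div_mod_eq, decide_eq_true_iff, Nat.div_eq_of_lt] at hx
        · cases hx
        · exact Nat.one_lt_two_pow h
      subst h2
      refine ⟨by norm_num, rfl, ?_⟩
      rw [dec_zero]
      intro h
      rw [T_zero]
      exact one_mem _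
    have h2 : ∀ L : List ℕ, (∀ p ∈ L, InH hF ω H p) → ∀ x, tb (List.rec 1 (fun p _ ih => setL ih p) L) x = true →
        InH hF ω H x := by
      intro L
      induction L with
      | nil => exact fun _ => h1
      | cons p L ih =>
        exact fun h => inH_setL hF hω (ih fun q hq => h q (List.mem_cons_of_mem _ hq)) (h p List.mem_cons_self)
    exact h2 G6 hG
  obtain ⟨K, hK, hk⟩ := orb_spec hF hω hG _ tree K0 hK0 chk6_true
  rw [eq_top_iff, ← R_eq_top hF (n := 6) (by norm_num), R, Subgroup.closure_le]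
  rintro _ ⟨v, hv, _, rfl⟩
  obtain ⟨x, hx, rfl⟩ := exists_code hF hω v
  have h1 := allB_spec hk x hx
  have h2 := (herm_eq_zero_iff hF hω x x).1 hv
  have h3 : Nat.beq (hm x x) 0 = true := by rw [h2]; rfl
  simp only [h3, cond_true] at h1
  exact (hK x h1).2.2 hv

end F

end Cfsg.Agent.H259.U6
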